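import Cfsg.Agent.Lib.Helper58.SpecProd.Defs

/-!
# SpecProd package (PRA): arithmetic of the primary case
-/

set_option autoImplicit false

namespace Cfsg.Agent.Lib.Helper51.SpecProd

open Finset

/-- `(q - 1) * ∑_{i<n} q^i = q^n - 1` in `ℕ`. -/
theorem pred_mul_geomSum (q n : ℕ) (hq : 2 ≤ q) :
    (q - 1) * ∑ i ∈ range n, q ^ i = q ^ n - 1 := by
  have h := Nat.geomSum_eq hq n
  have hd : (q - 1) ∣ q ^ n - 1 := by
    simpa using Nat.sub_dvd_pow_sub_pow q 1 n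
  rw [h, Nat.mul_div_cancel' hd]

/-- `∑_{i<n} q^i ≡ n mod (q - 1)`. -/
theorem geomSum_modEq (q n : ℕ) (hq : 1 ≤ q) :
    (∑ i ∈ range n, q ^ i) ≡ n [MOD (q - 1)] := by
  have h1 : q ≡ 1 [MOD (q - 1)] := by
    have : q = 1 + (q - 1) := by omega
    conv_lhs => rw [this]
    exact Nat.add_modEq_right
  have h2 : ∀ i, q ^ i ≡ 1 [MOD (q - 1)] := fun i => by
    simpa using h1.pow i
  have h3 : (∑ i ∈ range n, q ^ i) ≡ ∑ _i ∈ range n, 1 [MOD (q - 1)] := by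
    induction n with
    | zero => simp [Nat.ModEq]
    | succ k ih =>
      rw [sum_range_succ, sum_range_succ]
      exact ih.add (h2 k)
  simpa using h3

/-- `sig q n = (∑_{i<n} q^i) / gcd n (q - 1)`. -/
theorem sig_eq (q n : ℕ) (hq : 2 ≤ q) :
    Cfsg.Agent.Lib.Helper58.SpecProd.sig q n = (∑ i ∈ range n, q ^ i) / Nat.gcd n (q - 1) := by
  unfold Cfsg.Agent.Lib.Helper58.SpecProd.sig
  rw [← pred_mul_geomSum q n hq]
  exact Nat.mul_div_mul_left _ _ (by omega)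

/-- `gcd n (q - 1)` divides `∑_{i<n} q^i`. -/
theorem gcd_dvd_geomSum (q n : ℕ) (hq : 1 ≤ q) :
    Nat.gcd n (q - 1) ∣ ∑ i ∈ range n, q ^ i :=
  ((geomSum_modEq q n hq).dvd_iff (Nat.gcd_dvd_right n (q - 1))).mpr (Nat.gcd_dvd_left n (q - 1))

/-- `sig q n * gcd n (q - 1) = ∑_{i<n} q^i`. -/
theorem sig_mul_gcd (q n : ℕ) (hq : 2 ≤ q) :
    Cfsg.Agent.Lib.Helper58.SpecProd.sig q n * Nat.gcd n (q - 1) = ∑ i ∈ range n, q ^ i := by
  rw [sig_eq q n hq]
  exact Nat.div_mul_cancel (gcd_dvd_geomSum q n (by omega))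

theorem pkgPrimArith : Cfsg.Agent.Lib.Helper58.SpecProd.PkgPrimArith := by
  intro q d e m hq hd he hm1 hm2
  set D := ∑ i ∈ range d, q ^ i with hD
  have hqd : 2 ≤ q ^ d := by
    calc 2 ≤ q := hq
      _ = q ^ 1 := (pow_one q).symm
      _ ≤ q ^ d := Nat.pow_le_pow_right (by omega) hd
  set E := ∑ i ∈ range e, (q ^ d) ^ i with hE
  have h1 : q ^ d - 1 = (q - 1) * D := (pred_mul_geomSum q d hq).symm
  have hdiv : (q ^ d - 1) / (q - 1) = D := by
    rw [h1]; exact Nat.mul_div_cancel_left _ (by omega)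
  rw [hdiv] at hm2
  rw [h1] at hm1
  -- m ∣ D * gcd (q - 1) e
  have hm3 : m ∣ D * Nat.gcd (q - 1) e := by
    rw [← Nat.gcd_mul_left]
    exact Nat.dvd_gcd (by rwa [mul_comm]) hm2
  -- geometric sum for n = d * e
  have h2 : (q ^ d - 1) * E = q ^ (d * e) - 1 := by
    rw [pow_mul]; exact pred_mul_geomSum (q ^ d) e hqd
  have h3 : (q - 1) * ∑ i ∈ range (d * e), q ^ i = (q - 1) * (D * E) := by
    rw [pred_mul_geomSum q (d * e) hq, ← h2, h1, mul_assoc]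
  have h4 : ∑ i ∈ range (d * e), q ^ i = D * E :=
    Nat.eq_of_mul_eq_mul_left (by omega) h3
  -- gcd (q-1) e ∣ E
  have h5 : Nat.gcd (q - 1) e ∣ E := by
    have hmod : E ≡ e [MOD (q ^ d - 1)] := geomSum_modEq (q ^ d) e (by omega)
    have hmod' : E ≡ e [MOD (q - 1)] := hmod.of_dvd (by rw [h1]; exact dvd_mul_right _ _)
    exact (hmod'.dvd_iff (Nat.gcd_dvd_left (q - 1) e)).mpr (Nat.gcd_dvd_right (q - 1) e)
  set g2 := Nat.gcd (d * e) (q - 1) with hg2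
  have hg2pos : 0 < g2 := Nat.gcd_pos_of_pos_right _ (by omega)
  have h6 : Cfsg.Agent.Lib.Helper58.SpecProd.sig q (d * e) * g2 = D * E := by
    rw [hg2, sig_mul_gcd q (d * e) hq, h4]
  -- D * gcd (q-1) e * g2 ∣ sig * (q - 1) * g2
  have h7 : D * Nat.gcd (q - 1) e * g2 ∣
      Cfsg.Agent.Lib.Helper58.SpecProd.sig q (d * e) * (q - 1) * g2 := by
    have : Cfsg.Agent.Lib.Helper58.SpecProd.sig q (d * e) * (q - 1) * g2 = D * E * (q - 1) := by
      rw [← h6]; ring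
    rw [this]
    exact Nat.mul_dvd_mul (Nat.mul_dvd_mul (dvd_refl D) h5) (Nat.gcd_dvd_right _ _)
  exact hm3.trans (Nat.dvd_of_mul_dvd_mul_right hg2pos h7)

end Cfsg.Agent.Lib.Helper51.SpecProd
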