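import Cfsg.Agent.Lib.Helper58.SpecProd.Defs

/-!
# SpecProd package (PRF): field theory of the primary case
-/

set_option autoImplicit false

namespace Cfsg.Agent.Lib.Helper51.SpecProd

open Polynomial

universe u

/-- In a finite extension `K` of a finite field `F` with `q` elements, the elements with
`y ^ q = y` are those of `F`. -/
theorem mem_range_of_pow_card {F K : Type*} [Field F] [Fintype F] [Field K] [Algebra F K]
    (y : K) (hy : y ^ Fintype.card F = y) : ∃ c : F, algebraMap F K c = y := by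
  classical
  set q := Fintype.card F with hq
  have hq1 : 1 < q := Fintype.one_lt_card
  set P : K[X] := X ^ q - X with hP
  have hP0 : P ≠ 0 := FiniteField.X_pow_card_sub_X_ne_zero K hq1
  have hPdeg : P.natDegree = q := FiniteField.X_pow_card_sub_X_natDegree_eq K hq1
  set S : Finset K := Finset.univ.image (algebraMap F K) with hS
  have hScard : S.card = q := by
    rw [hS, Finset.card_image_of_injective _ (algebraMap F K).injective, Finset.card_univ]
  have hsub : S.val ⊆ P.roots := by
    intro s hs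
    have hs' : s ∈ S := hs
    rw [hS, Finset.mem_image] at hs'
    obtain ⟨a, -, rfl⟩ := hs'
    rw [mem_roots hP0, IsRoot.def, hP]
    simp only [eval_sub, eval_pow, eval_X]
    rw [← map_pow, FiniteField.pow_card, sub_self]
  have hle : S.val ≤ P.roots := (Multiset.le_iff_subset S.nodup).mpr hsub
  have hcard : Multiset.card P.roots ≤ Multiset.card S.val := by
    have h1 := Polynomial.card_roots' P
    rw [hPdeg] at h1
    have h2 : Multiset.card S.val = q := hScard
    omega
  have heq : S.val = P.roots := Multiset.eq_of_le_of_card_le hle hcard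
  have hyroot : y ∈ P.roots := by
    rw [mem_roots hP0, IsRoot.def, hP]
    simp only [eval_sub, eval_pow, eval_X]
    rw [hy, sub_self]
  rw [← heq] at hyroot
  have hyS : y ∈ S := hyroot
  rw [hS, Finset.mem_image] at hyS
  obtain ⟨c, -, hc⟩ := hyS
  exact ⟨c, hc⟩

theorem pkgPrimField_of (hA : Cfsg.Agent.Lib.Helper58.SpecProd.PkgPrimArith) :
    Cfsg.Agent.Lib.Helper58.SpecProd.PkgPrimField.{u} := by
  intro F _ _ f e hirr hmon he hnorm
  classical
  have : Fact (Irreducible f) := ⟨hirr⟩
  have hf0 : f ≠ 0 := hirr.ne_zero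
  let pb := AdjoinRoot.powerBasis hf0
  have : Module.Finite F (AdjoinRoot f) := pb.finite
  have : Finite (AdjoinRoot f) := Module.finite_of_finite F
  haveI : Fintype (AdjoinRoot f) := Fintype.ofFinite _
  set x : AdjoinRoot f := AdjoinRoot.root f with hx
  set d := f.natDegree with hd
  set q := Fintype.card F with hq
  have hq2 : 2 ≤ q := Fintype.one_lt_card
  have hd1 : 1 ≤ d := hirr.natDegree_pos
  have hcardK : Fintype.card (AdjoinRoot f) = q ^ d := by
    rw [Module.card_eq_pow_finrank (K := F) (V := AdjoinRoot f), pb.finrank]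
    rfl
  -- the norm of the root
  have hN : Algebra.norm F x = (-1) ^ d * f.coeff 0 := by
    have h := Algebra.PowerBasis.norm_gen_eq_coeff_zero_minpoly pb
    rw [AdjoinRoot.minpoly_powerBasis_gen_of_monic hmon hf0] at h
    exact h
  have hx0 : x ≠ 0 := by
    intro h0
    rw [h0, Algebra.norm_zero] at hN
    rw [← hN, zero_pow (by omega)] at hnorm
    exact zero_ne_one hnorm
  have hpow : algebraMap F (AdjoinRoot f) (Algebra.norm F x) =
      x ^ ((Nat.card (AdjoinRoot f) - 1) / (Nat.card F - 1)) :=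
    FiniteField.algebraMap_norm_eq_pow
  rw [Nat.card_eq_fintype_card, Nat.card_eq_fintype_card, hcardK] at hpow
  -- x ^ (D * e) = 1
  have h1 : x ^ ((q ^ d - 1) / (q - 1) * e) = 1 := by
    rw [pow_mul, ← hpow, ← map_pow, hN, hnorm, map_one]
  -- x ^ (q ^ d - 1) = 1
  have h2 : x ^ (q ^ d - 1) = 1 := by
    have := FiniteField.pow_card_sub_one_eq_one x hx0
    rwa [hcardK] at this
  have hm1 : orderOf x ∣ q ^ d - 1 := orderOf_dvd_of_pow_eq_one h2
  have hm2 : orderOf x ∣ (q ^ d - 1) / (q - 1) * e := orderOf_dvd_of_pow_eq_one h1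
  have hm3 := hA q d e (orderOf x) hq2 hd1 he hm1 hm2
  set σ := Cfsg.Agent.Lib.Helper58.SpecProd.sig q (d * e) with hσ
  have h3 : (x ^ σ) ^ (q - 1) = 1 := by
    rw [← pow_mul]; exact orderOf_dvd_iff_pow_eq_one.mp hm3
  have h4 : (x ^ σ) ^ q = x ^ σ := by
    have hq' : q = (q - 1) + 1 := by omega
    conv_lhs => rw [hq', pow_succ, h3, one_mul]
  obtain ⟨c, hc⟩ := mem_range_of_pow_card (F := F) (x ^ σ) h4
  refine ⟨c, ?_⟩
  rw [← AdjoinRoot.mk_eq_zero, map_sub, map_pow, AdjoinRoot.mk_X, AdjoinRoot.mk_C]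
  rw [← hx, ← hc, sub_eq_zero]
  rfl

end Cfsg.Agent.Lib.Helper51.SpecProd
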